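import Mathlib
import Cfsg.Agent.Lib.Helper43.OMinusBal.Defs

/-!
# S2733, package P-W2: from the Weyl step to scalars

If no element of `M` (semilinear similarities, closed under products, inverses and conjugation by
Siegel maps) moves a singular vector to a non-orthogonal one, then `M` consists of scalars.
-/

set_option autoImplicit false

namespace Cfsg.Agent.Lib.Helper65.OMinusBal

open Cfsg.Agent.Lib.Helper43.OMinusBal

universe u v

section

variable {E : Type u} [Field E] {W : Type v} [AddCommGroup W] [Module E W]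
variable (B : LinearMap.BilinForm E W)

theorem exists_pair_ne_zero (hnd : ∀ x : W, (∀ y, B x y = 0) → x = 0) {x : W} (hx : x ≠ 0) :
    ∃ y, B x y ≠ 0 := by
  by_contra h
  push Not at h
  exact hx (hnd x h)

/-- Adjusting a vector by a multiple of a singular vector to make it singular. -/
theorem adjust_singular (h2 : (2 : E) ≠ 0) (hsym : ∀ x y, B x y = B y x) {x u : W}
    (hxu : B x u = 1) (huu : B u u = 0) :
    B (x - (B x x / 2) • u) (x - (B x x / 2) • u) = 0 ∧ B (x - (B x x / 2) • u) u = 1 := by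
  have hux : B u x = 1 := by rw [hsym]; exact hxu
  constructor
  · simp only [map_sub, map_smul, LinearMap.sub_apply, LinearMap.smul_apply, smul_eq_mul, huu,
      hxu, hux]
    field_simp
    ring
  · simp only [map_sub, map_smul, LinearMap.sub_apply, LinearMap.smul_apply, smul_eq_mul, huu,
      hxu]
    ring

theorem exists_partner (h2 : (2 : E) ≠ 0) (hsym : ∀ x y, B x y = B y x)
    (hnd : ∀ x : W, (∀ y, B x y = 0) → x = 0) {u : W} (hu : u ≠ 0) (huu : B u u = 0) :
    ∃ f, B f f = 0 ∧ B f u = 1 := by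
  obtain ⟨x, hx⟩ := exists_pair_ne_zero B hnd hu
  have hxu : B x u ≠ 0 := by rw [hsym]; exact hx
  have h1 : B ((B x u)⁻¹ • x) u = 1 := by
    rw [map_smul, LinearMap.smul_apply, smul_eq_mul, inv_mul_cancel₀ hxu]
  exact ⟨_, adjust_singular B h2 hsym h1 huu⟩

theorem exists_perp [FiniteDimensional E W] {n : ℕ} (z : Fin n → W)
    (hn : n < Module.finrank E W) : ∃ x : W, x ≠ 0 ∧ ∀ i, B x (z i) = 0 := by
  let L : W →ₗ[E] (Fin n → E) := LinearMap.pi (fun i => B.flip (z i))
  have hker : LinearMap.ker L ≠ ⊥ := by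
    apply LinearMap.ker_ne_bot_of_finrank_lt
    rw [Module.finrank_fin_fun]
    exact hn
  obtain ⟨x, hx, hx0⟩ := Submodule.exists_mem_ne_zero_of_ne_bot hker
  refine ⟨x, hx0, fun i => ?_⟩
  have h := congrFun (LinearMap.mem_ker.mp hx) i
  simpa [L] using h

theorem exists_nonisotropic (h2 : (2 : E) ≠ 0) (hsym : ∀ x y, B x y = B y x)
    (hnd : ∀ x : W, (∀ y, B x y = 0) → x = 0) {z1 z2 d1 d2 x' : W}
    (h11 : B d1 z1 = 1) (h12 : B d1 z2 = 0) (h21 : B d2 z1 = 0) (h22 : B d2 z2 = 1)
    (hx' : x' ≠ 0) (hx1 : B x' z1 = 0) (hx2 : B x' z2 = 0) (hx3 : B x' d1 = 0)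
    (hx4 : B x' d2 = 0) : ∃ v, B v z1 = 0 ∧ B v z2 = 0 ∧ B v v ≠ 0 := by
  obtain ⟨y, hy⟩ := exists_pair_ne_zero B hnd hx'
  by_cases hxx : B x' x' = 0
  · have hy1 : B (y - (B y z1) • d1 - (B y z2) • d2) z1 = 0 := by
      simp only [map_sub, map_smul, LinearMap.sub_apply, LinearMap.smul_apply, smul_eq_mul, h11,
        h21]
      ring
    have hy2 : B (y - (B y z1) • d1 - (B y z2) • d2) z2 = 0 := by
      simp only [map_sub, map_smul, LinearMap.sub_apply, LinearMap.smul_apply, smul_eq_mul, h12,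
        h22]
      ring
    have hxy : B x' (y - (B y z1) • d1 - (B y z2) • d2) = B x' y := by
      simp only [map_sub, map_smul, smul_eq_mul, hx3, hx4]
      ring
    by_cases hyy : B (y - (B y z1) • d1 - (B y z2) • d2) (y - (B y z1) • d1 - (B y z2) • d2) = 0
    · refine ⟨x' + (y - (B y z1) • d1 - (B y z2) • d2), ?_, ?_, ?_⟩
      · rw [map_add, LinearMap.add_apply, hx1, hy1, add_zero]
      · rw [map_add, LinearMap.add_apply, hx2, hy2, add_zero]
      · have h : ∀ y' : W, B y' y' = 0 → B x' y' = B x' y →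
            B (x' + y') (x' + y') = 2 * B x' y := by
          intro y' hyy' hxy'
          simp only [map_add, LinearMap.add_apply, hxx, hyy', hsym y' x', hxy']
          ring
        rw [h _ hyy hxy]
        exact mul_ne_zero h2 hy
    · exact ⟨_, hy1, hy2, hyy⟩
  · exact ⟨x', hx1, hx2, hxx⟩

/-- Step A: every element of `M` maps each singular vector to a multiple of itself. -/
theorem stepA [FiniteDimensional E W] (h2 : (2 : E) ≠ 0) (hsym : ∀ x y, B x y = B y x)
    (hnd : ∀ x : W, (∀ y, B x y = 0) → x = 0)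
    (hdim : Module.finrank E W = 3 ∨ 5 ≤ Module.finrank E W)
    (M : Set (W → W)) (hM : MData B M)
    (h1 : ∀ ψ ∈ M, ∀ u : W, B u u = 0 → B (ψ u) u = 0)
    (ψ : W → W) (hψ : ψ ∈ M) (u : W) (hu : u ≠ 0) (huu : B u u = 0) :
    ∃ a : E, ψ u = a • u := by
  by_contra hcon
  push Not at hcon
  obtain ⟨σ, μ, hμ, hadd, hsm, hB⟩ := hM.semi ψ hψ
  obtain ⟨ψ', hψ', hinv1, hinv2⟩ := hM.inv ψ hψ
  have hu'u' : B (ψ u) (ψ u) = 0 := by rw [hB, huu, map_zero, mul_zero]
  have hu'u : B (ψ u) u = 0 := h1 ψ hψ u huu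
  have huu' : B u (ψ u) = 0 := by rw [hsym]; exact hu'u
  obtain ⟨f0, hf0f0, hf0u⟩ := exists_partner B h2 hsym hnd hu huu
  have he0 : ∃ e0, B e0 u = 0 ∧ B e0 (ψ u) = 1 := by
    by_contra hne
    push Not at hne
    have hall : ∀ y, B y u = 0 → B y (ψ u) = 0 := by
      intro y hy
      by_contra hyu'
      apply hne ((B y (ψ u))⁻¹ • y)
      · rw [map_smul, LinearMap.smul_apply, hy, smul_zero]
      · rw [map_smul, LinearMap.smul_apply, smul_eq_mul, inv_mul_cancel₀ hyu']
    apply hcon (B f0 (ψ u))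
    have h0 : ψ u - (B f0 (ψ u)) • u = 0 := by
      apply hnd
      intro y
      have hy0 := hall (y - (B y u) • f0) (by
        rw [map_sub, LinearMap.sub_apply, map_smul, LinearMap.smul_apply, hf0u, smul_eq_mul,
          mul_one, sub_self])
      simp only [map_sub, map_smul, LinearMap.sub_apply, LinearMap.smul_apply,
        smul_eq_mul] at hy0 ⊢
      rw [hsym (ψ u) y, hsym u y]
      linear_combination hy0
    exact sub_eq_zero.mp h0
  obtain ⟨e0, he0u, he0u'⟩ := he0
  obtain ⟨hee, heu'⟩ := adjust_singular B h2 hsym he0u' hu'u'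
  have heu : B (e0 - (B e0 e0 / 2) • ψ u) u = 0 := by
    rw [map_sub, LinearMap.sub_apply, map_smul, LinearMap.smul_apply, he0u, hu'u, smul_zero,
      sub_zero]
  generalize e0 - (B e0 e0 / 2) • ψ u = e at hee heu' heu
  have hu'e : B (ψ u) e = 1 := by rw [hsym]; exact heu'
  have hue : B u e = 0 := by rw [hsym]; exact heu
  have hf'u : B (f0 - (B f0 e) • ψ u) u = 1 := by
    rw [map_sub, LinearMap.sub_apply, map_smul, LinearMap.smul_apply, hf0u, hu'u, smul_zero,
      sub_zero]
  have hf'e : B (f0 - (B f0 e) • ψ u) e = 0 := by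
    rw [map_sub, LinearMap.sub_apply, map_smul, LinearMap.smul_apply, hu'e, smul_eq_mul,
      mul_one, sub_self]
  generalize f0 - (B f0 e) • ψ u = f' at hf'u hf'e
  rcases hdim with hdim | hdim
  · -- four independent vectors in dimension three
    have hli : LinearIndependent E ![u, ψ u, e, f'] := by
      rw [Fintype.linearIndependent_iff]
      intro g hg
      rw [Fin.sum_univ_four] at hg
      simp only [Matrix.cons_val_zero, Matrix.cons_val_one, Matrix.cons_val] at hg
      have hg3 : g 3 = 0 := by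
        have h := congrArg (fun x => B x u) hg
        simpa [huu, hu'u, heu, hf'u] using h
      rw [hg3, zero_smul, add_zero] at hg
      have hg2 : g 2 = 0 := by
        have h := congrArg (fun x => B x (ψ u)) hg
        simpa [huu', hu'u', heu'] using h
      rw [hg2, zero_smul, add_zero] at hg
      have hg1 : g 1 = 0 := by
        have h := congrArg (fun x => B x e) hg
        simpa [hue, hu'e] using h
      rw [hg1, zero_smul, add_zero] at hg
      have hg0 : g 0 = 0 := by
        rcases smul_eq_zero.mp hg with h | h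
        · exact h
        · exact absurd h hu
      intro i
      fin_cases i <;> assumption
    have hcard := hli.fintype_card_le_finrank
    rw [Fintype.card_fin] at hcard
    omega
  · -- dimension at least five
    obtain ⟨x', hx'0, hx'⟩ := exists_perp B ![u, e, f', ψ u] (by omega)
    have hx1 : B x' u = 0 := hx' 0
    have hx2 : B x' e = 0 := hx' 1
    have hx3 : B x' f' = 0 := hx' 2
    have hx4 : B x' (ψ u) = 0 := hx' 3
    obtain ⟨v, hvu, hve, hvv⟩ := exists_nonisotropic B h2 hsym hnd hf'u hf'e hu'u hu'e hx'0 hx1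
      hx2 hx3 hx4
    have hev : B e v = 0 := by rw [hsym]; exact hve
    have huv : B u v = 0 := by rw [hsym]; exact hvu
    have hk : (siegel B e v ∘ ψ ∘ siegel B e (-v)) ∘ ψ' ∈ M :=
      hM.mul _ (hM.conj ψ hψ e v hee hev) ψ' hψ'
    have hψ'u : ψ' (ψ u) = u := by
      have h := congrFun hinv2 u
      simpa using h
    have hs1 : siegel B e (-v) u = u := by
      simp only [siegel, map_neg, huv, hue, neg_zero, zero_smul, mul_zero, add_zero, sub_zero]
    have hku : ((siegel B e v ∘ ψ ∘ siegel B e (-v)) ∘ ψ') (ψ u) = siegel B e v (ψ u) := by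
      simp only [Function.comp_apply, hψ'u, hs1]
    have h3 := h1 _ hk (ψ u) hu'u'
    rw [hku] at h3
    simp only [siegel, map_add, map_sub, map_smul, LinearMap.add_apply, LinearMap.sub_apply,
      LinearMap.smul_apply, smul_eq_mul, hu'u', heu', hu'e, hsym v (ψ u)] at h3
    apply hvv
    have h4 : B v v / 2 = 0 := by linear_combination -h3
    rcases div_eq_zero_iff.mp h4 with h | h
    · exact h
    · exact absurd h h2

end

/-- Package P-W2 of S2733. -/
theorem lemW2 : LemW2.{u, v} := by
  intro E _ W _ _ _ h2 B hsym hnd hdim hiso M hM h1 ψ hψ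
  obtain ⟨u0, hu0, hu0u0⟩ := hiso
  obtain ⟨f, hff, hfu⟩ := exists_partner B h2 hsym hnd hu0 hu0u0
  have huf : B u0 f = 1 := by rw [hsym]; exact hfu
  have hf0 : f ≠ 0 := by
    intro h
    rw [h] at hfu
    simp at hfu
  obtain ⟨σ, μ, hμ, hadd, hsm, hB⟩ := hM.semi ψ hψ
  obtain ⟨ψ', hψ', hinv1, hinv2⟩ := hM.inv ψ hψ
  have hsub : ∀ x y, ψ (x - y) = ψ x - ψ y := by
    intro x y
    have h := hadd (x - y) y
    rw [sub_add_cancel] at h
    rw [h, add_sub_cancel_right]
  have hinj : ∀ x, ψ x = 0 → x = 0 := by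
    intro x hx
    have h := congrFun hinv2 x
    simp only [Function.comp_apply, id] at h
    rw [hx] at h
    obtain ⟨σ', μ', hμ', hadd', hsm', hB'⟩ := hM.semi ψ' hψ'
    have h0 : ψ' 0 = 0 := by simpa using hsm' 0 0
    rw [h0] at h
    exact h.symm
  have hA := stepA B h2 hsym hnd hdim M hM h1 ψ hψ
  obtain ⟨α, hα⟩ := hA u0 hu0 hu0u0
  obtain ⟨α', hα'⟩ := hA f hf0 hff
  have hα0 : α ≠ 0 := by
    intro h
    rw [h, zero_smul] at hα
    exact hu0 (hinj _ hα)
  have hα'0 : α' ≠ 0 := by
    intro h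
    rw [h, zero_smul] at hα'
    exact hf0 (hinj _ hα')
  have hperp1 : ∀ w, B w u0 = 0 → B (ψ w) u0 = 0 := by
    intro w hw
    have h := hB w u0
    rw [hα, hw, map_zero, mul_zero, map_smul, smul_eq_mul] at h
    exact (mul_eq_zero.mp h).resolve_left hα0
  have hperp2 : ∀ w, B w f = 0 → B (ψ w) f = 0 := by
    intro w hw
    have h := hB w f
    rw [hα', hw, map_zero, mul_zero, map_smul, smul_eq_mul] at h
    exact (mul_eq_zero.mp h).resolve_left hα'0
  have key : ∀ w, B w u0 = 0 → B w f = 0 → ∀ t : E,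
      α • u0 + σ t • ψ w - (σ (t ^ 2 * (B w w / 2)) * α') • f
        = α • (u0 + t • w - (t ^ 2 * (B w w / 2)) • f) := by
    intro w hwu hwf t
    have hzz : B (u0 + t • w - (t ^ 2 * (B w w / 2)) • f)
        (u0 + t • w - (t ^ 2 * (B w w / 2)) • f) = 0 := by
      simp only [map_add, map_sub, map_smul, LinearMap.add_apply, LinearMap.sub_apply,
        LinearMap.smul_apply, smul_eq_mul, hu0u0, hff, hfu, huf, hwu, hwf, hsym u0 w, hsym f w]
      field_simp
      ring
    have hzf : B (u0 + t • w - (t ^ 2 * (B w w / 2)) • f) f = 1 := by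
      simp only [map_add, map_sub, map_smul, LinearMap.add_apply, LinearMap.sub_apply,
        LinearMap.smul_apply, smul_eq_mul, hff, huf, hwf]
      ring
    have hz0 : u0 + t • w - (t ^ 2 * (B w w / 2)) • f ≠ 0 := by
      intro h
      rw [h] at hzf
      simp at hzf
    obtain ⟨c, hc⟩ := hA _ hz0 hzz
    have hψz : ψ (u0 + t • w - (t ^ 2 * (B w w / 2)) • f)
        = α • u0 + σ t • ψ w - (σ (t ^ 2 * (B w w / 2)) * α') • f := by
      rw [hsub, hadd, hsm, hsm, hα, hα', smul_smul]
    have hcα : c = α := by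
      have h3 : B (ψ (u0 + t • w - (t ^ 2 * (B w w / 2)) • f)) f = c := by
        rw [hc, map_smul, LinearMap.smul_apply, hzf, smul_eq_mul, mul_one]
      rw [hψz] at h3
      simp only [map_add, map_sub, map_smul, LinearMap.add_apply, LinearMap.sub_apply,
        LinearMap.smul_apply, smul_eq_mul, hff, huf, hperp2 w hwf] at h3
      linear_combination -h3
    rw [← hψz, hc, hcα]
  have key1 : ∀ w, B w u0 = 0 → B w f = 0 → ∀ t : E,
      σ (t ^ 2 * (B w w / 2)) * α' = α * (t ^ 2 * (B w w / 2)) := by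
    intro w hwu hwf t
    have h := congrArg (fun x => B x u0) (key w hwu hwf t)
    simp only [map_add, map_sub, map_smul, LinearMap.add_apply, LinearMap.sub_apply,
      LinearMap.smul_apply, smul_eq_mul, hu0u0, hfu, hwu, hperp1 w hwu] at h
    linear_combination -h
  have hw : ∀ w, B w u0 = 0 → B w f = 0 → ψ w = α • w := by
    intro w hwu hwf
    have h := key w hwu hwf 1
    have h' := key1 w hwu hwf 1
    rw [h', map_one, one_smul, one_smul, smul_sub, smul_add, smul_smul] at h
    have h5 : α • u0 + ψ w = α • u0 + α • w := sub_left_injective h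
    exact add_left_cancel h5
  -- a non-singular vector orthogonal to `u0` and `f`
  obtain ⟨x', hx'0, hx'⟩ := exists_perp B ![u0, f] (by rcases hdim with h | h <;> omega)
  have hx1 : B x' u0 = 0 := hx' 0
  have hx2 : B x' f = 0 := hx' 1
  obtain ⟨w0, hw0u, hw0f, hw0w0⟩ := exists_nonisotropic B h2 hsym hnd hfu hff hu0u0 huf hx'0 hx1
    hx2 hx2 hx1
  have hσ : ∀ t : E, σ t = t := by
    intro t
    have h := congrArg (fun x => B x w0) (key w0 hw0u hw0f t)
    simp only [map_add, map_sub, map_smul, LinearMap.add_apply, LinearMap.sub_apply,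
      LinearMap.smul_apply, smul_eq_mul, hw w0 hw0u hw0f, hsym u0 w0, hsym f w0, hw0u, hw0f] at h
    have h6 : (σ t - t) * (α * B w0 w0) = 0 := by linear_combination h
    rcases mul_eq_zero.mp h6 with h7 | h7
    · exact sub_eq_zero.mp h7
    · exact absurd h7 (mul_ne_zero hα0 hw0w0)
  have hαα' : α' = α := by
    have h := key1 w0 hw0u hw0f 1
    rw [hσ] at h
    have h8 : (α' - α) * (B w0 w0 / 2) = 0 := by linear_combination h
    rcases mul_eq_zero.mp h8 with h9 | h9
    · exact sub_eq_zero.mp h9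
    · exact absurd h9 (div_ne_zero hw0w0 h2)
  refine ⟨α, fun x => ?_⟩
  have hp1 : B (x - (B x f) • u0 - (B x u0) • f) u0 = 0 := by
    simp only [map_sub, map_smul, LinearMap.sub_apply, LinearMap.smul_apply, smul_eq_mul, hu0u0,
      hfu]
    ring
  have hp2 : B (x - (B x f) • u0 - (B x u0) • f) f = 0 := by
    simp only [map_sub, map_smul, LinearMap.sub_apply, LinearMap.smul_apply, smul_eq_mul, huf,
      hff]
    ring
  have hx : x = (x - (B x f) • u0 - (B x u0) • f) + (B x f) • u0 + (B x u0) • f := by abel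
  have h10 := hw _ hp1 hp2
  calc ψ x = ψ ((x - (B x f) • u0 - (B x u0) • f) + (B x f) • u0 + (B x u0) • f) := by rw [← hx]
    _ = α • (x - (B x f) • u0 - (B x u0) • f) + (B x f) • α • u0 + (B x u0) • α • f := by
        rw [hadd, hadd, hsm, hsm, h10, hα, hα', hσ, hσ, hαα']
    _ = α • x := by
        rw [smul_sub, smul_sub, smul_comm (B x f) α u0, smul_comm (B x u0) α f]
        abel

end Cfsg.Agent.Lib.Helper65.OMinusBal
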